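import Cfsg.Agent.Lib.Char.Complete
import Cfsg.Agent.Lib.Char.Burnside
import Mathlib.GroupTheory.ClassEquation
import Mathlib.Tactic

/-!
# Irreducible characters vanishing on all but two conjugacy classes (Gagola)

Let `χ` be an irreducible character of `G`, `|G| > 2`, nonzero on exactly two classes: `{1}` and the
class of `c`.

* `exists_class_data`: extract `c`.
* `sum_mul_eq`: evaluation of `∑ χ g * f g` for a class function `f`.
* `ne_one_of_two`: `χ` is not trivial.
* `deg_add_eq_zero`: `χ 1 + t * χ c = 0`.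
* `faithful_of_two`: `χ g = χ 1 → g = 1`.
* `value_eq_deg_of_ne`: every other irreducible character has `c` in its kernel.
-/

set_option autoImplicit false

namespace Cfsg.Agent.Lib.Gagola.Basic

open Cfsg Module
open Cfsg.Agent.Lib.Char.Basic Cfsg.Agent.Lib.Char.Ortho Cfsg.Agent.Lib.Char.Complete
open scoped ComplexConjugate

universe u

set_option linter.unusedSectionVars false

variable {G : Type u} [Group G] [Finite G]

/-- The class of `c` besides that of the identity. -/
theorem exists_class_data (χ : IrrCharacter G)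
    (hχ : Nat.card {C : ConjClasses G // ∃ g ∈ C.carrier, (χ : G → ℂ) g ≠ 0} = 2) :
    ∃ c : G, c ≠ 1 ∧ (χ : G → ℂ) c ≠ 0 ∧ ∀ g, (χ : G → ℂ) g ≠ 0 → g = 1 ∨ IsConj g c := by
  classical
  obtain ⟨x, y, hxy, hall⟩ := Nat.card_eq_two_iff.mp hχ
  have hone : ConjClasses.mk (1 : G) ∈ {C : ConjClasses G | ∃ g ∈ C.carrier, (χ : G → ℂ) g ≠ 0} := by
    refine ⟨1, ?_, irr_one_ne_zero χ.2⟩
    simp [ConjClasses.mem_carrier_iff_mk_eq]
  have key : ∃ z : {C : ConjClasses G // ∃ g ∈ C.carrier, (χ : G → ℂ) g ≠ 0},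
      z.1 ≠ ConjClasses.mk 1 ∧ ∀ w : {C : ConjClasses G // ∃ g ∈ C.carrier, (χ : G → ℂ) g ≠ 0},
        w.1 = ConjClasses.mk 1 ∨ w = z := by
    have hmem : ∀ w : {C : ConjClasses G // ∃ g ∈ C.carrier, (χ : G → ℂ) g ≠ 0}, w = x ∨ w = y := by
      intro w
      have : w ∈ ({x, y} : Set _) := by rw [hall]; trivial
      simpa using this
    rcases hmem ⟨_, hone⟩ with h | h
    · refine ⟨y, ?_, ?_⟩
      · intro hy
        apply hxy
        apply Subtype.ext
        rw [hy, ← congrArg Subtype.val h]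
      · intro w
        rcases hmem w with h' | h'
        · left; rw [h', ← congrArg Subtype.val h]
        · right; exact h'
    · refine ⟨x, ?_, ?_⟩
      · intro hy
        apply hxy
        apply Subtype.ext
        rw [hy, ← congrArg Subtype.val h]
      · intro w
        rcases hmem w with h' | h'
        · right; exact h'
        · left; rw [h', ← congrArg Subtype.val h]
  obtain ⟨⟨C, c, hc, hc0⟩, hC, hall'⟩ := key
  have hCc : ConjClasses.mk c = C := (ConjClasses.mem_carrier_iff_mk_eq).mp hc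
  refine ⟨c, ?_, hc0, ?_⟩
  · rintro rfl
    exact hC hCc.symm
  · intro g hg
    have hgw := hall' ⟨ConjClasses.mk g, g, by simp [ConjClasses.mem_carrier_iff_mk_eq], hg⟩
    rcases hgw with h | h
    · left
      have : IsConj g 1 := ConjClasses.mk_eq_mk_iff_isConj.mp h
      exact isConj_one_left.mp this
    · right
      have h' := congrArg Subtype.val h
      simp only at h'
      rw [← hCc] at h'
      exact ConjClasses.mk_eq_mk_iff_isConj.mp h'

variable (χ : IrrCharacter G) {c : G}

/-- Sum over the group of `χ g * f g` if `χ` is supported on the classes of `1` and `c`. -/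
theorem sum_mul_eq [Fintype G] [DecidableEq G] (hc : c ≠ 1)
    (hsupp : ∀ g, (χ : G → ℂ) g ≠ 0 → g = 1 ∨ IsConj g c) {f : G → ℂ}
    (hf : IsClassFunction G f) :
    ∑ g : G, (χ : G → ℂ) g * f g =
      (χ : G → ℂ) 1 * f 1 + (Nat.card {x : G // IsConj x c} : ℂ) * ((χ : G → ℂ) c * f c) := by
  classical
  let T : Finset G := Finset.univ.filter fun x => IsConj x c
  have hT : (Nat.card {x : G // IsConj x c} : ℂ) = T.card := by
    rw [Nat.card_eq_fintype_card, Fintype.card_subtype]
  have h1T : (1 : G) ∉ T := by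
    simp only [T, Finset.mem_filter, Finset.mem_univ, true_and]
    intro h
    exact hc (isConj_one_right.mp h)
  have hsum : ∑ g : G, (χ : G → ℂ) g * f g = ∑ g ∈ insert 1 T, (χ : G → ℂ) g * f g := by
    symm
    apply Finset.sum_subset (Finset.subset_univ _)
    intro g _ hg
    by_contra hne
    have h0 : (χ : G → ℂ) g ≠ 0 := fun h => hne (by rw [h, zero_mul])
    rcases hsupp g h0 with h | h
    · apply hg; simp [h]
    · apply hg
      exact Finset.mem_insert_of_mem (by simp only [T, Finset.mem_filter, Finset.mem_univ, true_and]; exact h)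
  rw [hsum, Finset.sum_insert h1T, hT]
  congr 1
  have hχc := isClassFunction_iff_isConj.mp (isClassFunction_of_isIrrCharacter χ.2)
  have hfc := isClassFunction_iff_isConj.mp hf
  rw [Finset.sum_congr rfl (g := fun _ => (χ : G → ℂ) c * f c)]
  · simp
  · intro x hx
    have hx' : IsConj x c := by simpa [T] using hx
    rw [hχc _ _ hx', hfc _ _ hx']

/-- The character vanishing off two classes is not the trivial one. -/
theorem ne_one_of_two (hG : 2 < Nat.card G) (hc : c ≠ 1)
    (hsupp : ∀ g, (χ : G → ℂ) g ≠ 0 → g = 1 ∨ IsConj g c) :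
    (χ : G → ℂ) ≠ fun _ => 1 := by
  classical
  intro h
  have hall : ∀ g : G, g = 1 ∨ IsConj g c := fun g => hsupp g (by rw [h]; exact one_ne_zero)
  let _ := Fintype.ofFinite G
  have hdvd : Nat.card {x : G // IsConj x c} ∣ Nat.card G :=
    ⟨_, (card_isConj_mul_card_centralizer c).symm⟩
  have hcard : Nat.card G = Nat.card {x : G // IsConj x c} + 1 := by
    rw [Nat.card_eq_fintype_card, Nat.card_eq_fintype_card, Fintype.card_subtype]
    have : (Finset.univ : Finset G) = insert 1 (Finset.univ.filter fun x => IsConj x c) := by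
      ext g
      simp only [Finset.mem_univ, Finset.mem_insert, Finset.mem_filter, true_and, true_iff]
      exact hall g
    have h1T : (1 : G) ∉ Finset.univ.filter fun x => IsConj x c := by
      simp only [Finset.mem_filter, Finset.mem_univ, true_and]
      intro h'
      exact hc (isConj_one_right.mp h')
    have hc1 : (Finset.univ : Finset G).card = (Finset.univ.filter fun x => IsConj x c).card + 1 := by
      conv_lhs => rw [this]
      exact Finset.card_insert_of_notMem h1T
    exact hc1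
  rw [hcard] at hdvd hG
  have h1 : Nat.card {x : G // IsConj x c} ∣ 1 := by
    exact (Nat.dvd_add_right (dvd_refl _)).mp hdvd
  have := Nat.eq_one_of_dvd_one h1
  omega

/-- Orthogonality to the trivial character. -/
theorem deg_add_eq_zero (hG : 2 < Nat.card G) (hc : c ≠ 1)
    (hsupp : ∀ g, (χ : G → ℂ) g ≠ 0 → g = 1 ∨ IsConj g c) :
    (χ : G → ℂ) 1 + (Nat.card {x : G // IsConj x c} : ℂ) * (χ : G → ℂ) c = 0 := by
  classical
  let _ := Fintype.ofFinite G
  have hne := ne_one_of_two χ hG hc hsupp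
  have h0 := classInner_eq_zero_of_isIrr_of_ne χ.2
    (Cfsg.Agent.Lib.Char.Burnside.isIrrCharacter_one (G := G)) hne
  rw [classInner_def] at h0
  have h1 : ∑ g : G, (χ : G → ℂ) g * conj ((fun _ => (1 : ℂ)) g) = 0 := by
    have := (mul_eq_zero.mp h0).resolve_left (inv_ne_zero card_ne_zero_complex)
    exact this
  have h2 := sum_mul_eq χ hc hsupp (f := fun _ : G => conj (1 : ℂ)) (fun _ _ => by simp)
  rw [h1] at h2
  simpa using h2.symm

/-- Cardinality of the class of `c` is positive. -/
theorem card_class_pos (c : G) : 0 < Nat.card {x : G // IsConj x c} := by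
  have : Nonempty {x : G // IsConj x c} := ⟨⟨c, IsConj.refl c⟩⟩
  exact Nat.card_pos

/-- The value of `χ` at `c`, expressed in the degree. -/
theorem value_eq (hG : 2 < Nat.card G) (hc : c ≠ 1)
    (hsupp : ∀ g, (χ : G → ℂ) g ≠ 0 → g = 1 ∨ IsConj g c) :
    (χ : G → ℂ) c = -(χ : G → ℂ) 1 / (Nat.card {x : G // IsConj x c} : ℂ) := by
  have h := deg_add_eq_zero χ hG hc hsupp
  have ht : (Nat.card {x : G // IsConj x c} : ℂ) ≠ 0 :=
    Nat.cast_ne_zero.mpr (card_class_pos c).ne'
  field_simp
  linear_combination h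

/-- `χ` is faithful. -/
theorem faithful_of_data (hG : 2 < Nat.card G) (hc : c ≠ 1)
    (hsupp : ∀ g, (χ : G → ℂ) g ≠ 0 → g = 1 ∨ IsConj g c) (g : G)
    (hg : (χ : G → ℂ) g = (χ : G → ℂ) 1) : g = 1 := by
  have h0 := irr_one_ne_zero χ.2
  rcases hsupp g (by rw [hg]; exact h0) with h | h
  · exact h
  · exfalso
    have hχc := isClassFunction_iff_isConj.mp (isClassFunction_of_isIrrCharacter χ.2)
    have hcd : (χ : G → ℂ) c = (χ : G → ℂ) 1 := by rw [← hχc _ _ h, hg]
    have h1 := deg_add_eq_zero χ hG hc hsupp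
    rw [hcd] at h1
    have h2 : ((1 : ℂ) + (Nat.card {x : G // IsConj x c} : ℂ)) * (χ : G → ℂ) 1 = 0 := by
      linear_combination h1
    have h3 : (1 : ℂ) + (Nat.card {x : G // IsConj x c} : ℂ) = ((1 + Nat.card {x : G // IsConj x c} : ℕ) : ℂ) := by
      push_cast; ring
    rw [h3] at h2
    rcases mul_eq_zero.mp h2 with h4 | h4
    · have := Nat.cast_eq_zero.mp h4
      omega
    · exact h0 h4

/-- Every other irreducible character has `c` in its kernel. -/
theorem value_eq_deg_of_ne (hG : 2 < Nat.card G) (hc : c ≠ 1)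
    (hsupp : ∀ g, (χ : G → ℂ) g ≠ 0 → g = 1 ∨ IsConj g c) (ψ : IrrCharacter G) (hψ : ψ ≠ χ) :
    (ψ : G → ℂ) c = (ψ : G → ℂ) 1 := by
  classical
  let _ := Fintype.ofFinite G
  have hne : (χ : G → ℂ) ≠ (ψ : G → ℂ) := fun h => hψ (Subtype.ext h.symm)
  have h0 := classInner_eq_zero_of_isIrr_of_ne χ.2 ψ.2 hne
  rw [classInner_def] at h0
  have h1 : ∑ g : G, (χ : G → ℂ) g * conj ((ψ : G → ℂ) g) = 0 :=
    (mul_eq_zero.mp h0).resolve_left (inv_ne_zero card_ne_zero_complex)
  have hcf := isClassFunction_of_isIrrCharacter ψ.2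
  have h2 := sum_mul_eq χ hc hsupp (f := fun g => conj ((ψ : G → ℂ) g))
    (fun g h => by simp only; rw [hcf g h])
  rw [h1] at h2
  have h3 := deg_add_eq_zero χ hG hc hsupp
  have hdeg : conj ((ψ : G → ℂ) 1) = (ψ : G → ℂ) 1 := by
    obtain ⟨n, -, hn⟩ := exists_pos_deg_of_isIrr ψ.2
    rw [hn]; simp
  have h4 : (χ : G → ℂ) 1 * (conj ((ψ : G → ℂ) c) - (ψ : G → ℂ) 1) = 0 := by
    rw [hdeg] at h2
    linear_combination h2 + conj ((ψ : G → ℂ) c) * h3
  have h5 := (mul_eq_zero.mp h4).resolve_left (irr_one_ne_zero χ.2)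
  have h6 : conj ((ψ : G → ℂ) c) = (ψ : G → ℂ) 1 := by linear_combination h5
  rw [← hdeg] at h6
  exact (RingHom.injective (starRingEnd ℂ)) h6

/-- Main package: `χ` is faithful given the hypothesis of the two classes. -/
theorem faithful_of_two (hG : 2 < Nat.card G)
    (hχ : Nat.card {C : ConjClasses G // ∃ g ∈ C.carrier, (χ : G → ℂ) g ≠ 0} = 2) (g : G)
    (hg : (χ : G → ℂ) g = (χ : G → ℂ) 1) : g = 1 := by
  obtain ⟨c, hc, -, hsupp⟩ := exists_class_data χ hχ
  exact faithful_of_data χ hG hc hsupp g hg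

/-- Uniqueness of the faithful irreducible character. -/
theorem eq_of_faithful (hG : 2 < Nat.card G)
    (hχ : Nat.card {C : ConjClasses G // ∃ g ∈ C.carrier, (χ : G → ℂ) g ≠ 0} = 2)
    (ψ : IrrCharacter G) (hψ : ∀ g : G, (ψ : G → ℂ) g = (ψ : G → ℂ) 1 → g = 1) : ψ = χ := by
  by_contra hne
  obtain ⟨c, hc, -, hsupp⟩ := exists_class_data χ hχ
  exact hc (hψ c (value_eq_deg_of_ne χ hG hc hsupp ψ hne))

end Cfsg.Agent.Lib.Gagola.Basic
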