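import Cfsg.Agent.Lib.Gagola.Normal
import Cfsg.Agent.Lib.Char.Linear
import Mathlib.GroupTheory.GroupAction.ConjAct
import Mathlib.GroupTheory.Nilpotent
import Mathlib.Tactic

/-!
# Gagola's theorem: Camina pair and upper central series.

Setting: `χ` irreducible, nonzero on exactly two classes with support the normal `p`-subgroup `N`.

* `sum_irr_quot`: Column orthogonality transferred to the quotient.
* `card_centralizer_eq`: `|C_G(x)| = |C_{G/N}(xN)|` for `x ∉ N`.
* `isConj_mul`: `x` is conjugate to `x n`.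
* `orbit_surj`: for `z ∈ P \ N` with `zN` central in `P/N`, `P` is transitive on `zN`.
-/

set_option autoImplicit false
set_option linter.unusedSectionVars false

namespace Cfsg.Agent.Lib.Gagola.Camina

open Cfsg Module
open Cfsg.Agent.Lib.Char.Basic Cfsg.Agent.Lib.Char.Ortho Cfsg.Agent.Lib.Char.Complete
open Cfsg.Agent.Lib.Char.Linear
open Cfsg.Agent.Lib.Gagola.Basic Cfsg.Agent.Lib.Gagola.Normal
open scoped ComplexConjugate

universe u

variable {G : Type u} [Group G] [Finite G] (χ : IrrCharacter G) {p : ℕ} [Fact p.Prime]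
  (N : Subgroup G) [N.Normal]

/-- Column orthogonality in the quotient, when `χ x = 0`. -/
theorem sum_irr_quot (hG : 2 < Nat.card G)
    (hχ : Nat.card {C : ConjClasses G // ∃ g ∈ C.carrier, (χ : G → ℂ) g ≠ 0} = 2)
    (hN : ∀ g : G, g ∈ N ↔ (χ : G → ℂ) g ≠ 0)
    [Fintype (IrrCharacter G)] [Fintype (IrrCharacter (G ⧸ N))] {x : G}
    (hx : (χ : G → ℂ) x = 0) (y : G) :
    ∑ φ : IrrCharacter (G ⧸ N), (φ : G ⧸ N → ℂ) (x : G ⧸ N) * conj ((φ : G ⧸ N → ℂ) (y : G ⧸ N)) =
      ∑ ψ : IrrCharacter G, (ψ : G → ℂ) x * conj ((ψ : G → ℂ) y) := by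
  classical
  obtain ⟨c, m, hc1, hcN, hm0, hconj, hconj', hcard, hbm, hdm, hGc⟩ := exists_data χ N hG hχ hN
  obtain ⟨c', hc'1, -, hsupp⟩ := exists_class_data χ hχ
  let π : G →* G ⧸ N := QuotientGroup.mk' N
  have hπ : Function.Surjective π := QuotientGroup.mk'_surjective N
  have hker : π.ker = N := QuotientGroup.ker_mk' N
  rw [← Finset.sum_erase Finset.univ (a := χ) (by rw [hx, zero_mul])]
  refine Finset.sum_bij
    (fun φ _ => (⟨(φ : G ⧸ N → ℂ) ∘ π, isIrrCharacter_comp π hπ φ.2⟩ : IrrCharacter G))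
    ?_ ?_ ?_ ?_
  · intro φ _
    simp only [Finset.mem_erase, Finset.mem_univ, and_true]
    intro h
    have h1 : (χ : G → ℂ) c = (χ : G → ℂ) 1 := by
      rw [← h]
      simp only [Function.comp, map_one]
      have : π c = 1 := by
        rw [← MonoidHom.mem_ker, hker]
        exact hcN
      rw [this]
    exact hc1 (faithful_of_two χ hG hχ c h1)
  · intro φ _ φ' _ h
    apply Subtype.ext
    funext q
    obtain ⟨g, rfl⟩ := hπ q
    exact congrFun (congrArg Subtype.val h) g
  · intro ψ hψ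
    have hne : ψ ≠ χ := Finset.ne_of_mem_erase hψ
    have hψker : ∀ k ∈ π.ker, (ψ : G → ℂ) k = (ψ : G → ℂ) 1 := by
      intro k hk
      rw [hker] at hk
      by_cases hk1 : k = 1
      · rw [hk1]
      · have := hconj k hk hk1
        rw [isClassFunction_iff_isConj.mp (isClassFunction_of_isIrrCharacter ψ.2) _ _ this]
        have hsupp2 : ∀ g, (χ : G → ℂ) g ≠ 0 → g = 1 ∨ IsConj g c := by
          intro g hg
          by_cases hg1 : g = 1
          · exact Or.inl hg1
          · exact Or.inr (hconj g ((hN g).mpr hg) hg1)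
        exact value_eq_deg_of_ne χ hG hc1 hsupp2 ψ hne
    obtain ⟨φ, hφ, hφψ⟩ := isIrrCharacter_descend π hπ ψ.2 hψker
    exact ⟨⟨φ, hφ⟩, Finset.mem_univ _, Subtype.ext hφψ.symm⟩
  · intro φ _
    rfl

/-- Part (a): equality of the orders of centralizers. -/
theorem card_centralizer_eq (hG : 2 < Nat.card G)
    (hχ : Nat.card {C : ConjClasses G // ∃ g ∈ C.carrier, (χ : G → ℂ) g ≠ 0} = 2)
    (hN : ∀ g : G, g ∈ N ↔ (χ : G → ℂ) g ≠ 0) {x : G} (hx : x ∉ N) :
    Nat.card (Subgroup.centralizer ({x} : Set G)) =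
      Nat.card (Subgroup.centralizer ({(x : G ⧸ N)} : Set (G ⧸ N))) := by
  classical
  let _ := Fintype.ofFinite G
  let _ := Fintype.ofFinite (G ⧸ N)
  have := finite_irrCharacter (G := G)
  have := finite_irrCharacter (G := G ⧸ N)
  let _ := Fintype.ofFinite (IrrCharacter G)
  let _ := Fintype.ofFinite (IrrCharacter (G ⧸ N))
  have hx0 : (χ : G → ℂ) x = 0 := by
    by_contra h
    exact hx ((hN x).mpr h)
  have h1 := sum_irr_quot χ N hG hχ hN hx0 x
  rw [sum_irr_mul_conj, sum_irr_mul_conj, if_pos (IsConj.refl _), if_pos (IsConj.refl _)] at h1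
  exact_mod_cast h1.symm

/-- The Camina property. -/
theorem isConj_mul (hG : 2 < Nat.card G)
    (hχ : Nat.card {C : ConjClasses G // ∃ g ∈ C.carrier, (χ : G → ℂ) g ≠ 0} = 2)
    (hN : ∀ g : G, g ∈ N ↔ (χ : G → ℂ) g ≠ 0) {x n : G} (hx : x ∉ N) (hn : n ∈ N) :
    IsConj x (x * n) := by
  classical
  let _ := Fintype.ofFinite G
  let _ := Fintype.ofFinite (G ⧸ N)
  have := finite_irrCharacter (G := G)
  have := finite_irrCharacter (G := G ⧸ N)
  let _ := Fintype.ofFinite (IrrCharacter G)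
  let _ := Fintype.ofFinite (IrrCharacter (G ⧸ N))
  have hx0 : (χ : G → ℂ) x = 0 := by
    by_contra h
    exact hx ((hN x).mpr h)
  have h1 := sum_irr_quot χ N hG hχ hN hx0 (x * n)
  have hq : (((x * n : G)) : G ⧸ N) = (x : G ⧸ N) := by
    rw [QuotientGroup.mk_mul, (QuotientGroup.eq_one_iff n).mpr hn, mul_one]
  rw [hq, sum_irr_mul_conj, sum_irr_mul_conj, if_pos (IsConj.refl _)] at h1
  by_contra hcon
  rw [if_neg hcon] at h1
  have h3 : (Nat.card (Subgroup.centralizer ({(x : G ⧸ N)} : Set (G ⧸ N))) : ℂ) ≠ 0 :=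
    Nat.cast_ne_zero.mpr Nat.card_pos.ne'
  exact h3 h1

/-- Order of the preimage of a subgroup of the quotient. -/
theorem card_comap_mk (S : Subgroup (G ⧸ N)) :
    Nat.card (S.comap (QuotientGroup.mk' N)) = Nat.card N * Nat.card S := by
  have h1 := Subgroup.card_mul_index (S.comap (QuotientGroup.mk' N))
  have h2 := Subgroup.card_mul_index S
  have h3 : (S.comap (QuotientGroup.mk' N)).index = S.index :=
    Subgroup.index_comap_of_surjective S (QuotientGroup.mk'_surjective N)
  have h4 : Nat.card G = Nat.card (G ⧸ N) * Nat.card N :=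
    Subgroup.card_eq_card_quotient_mul_card_subgroup N
  rw [h3] at h1
  have h5 : 0 < S.index := Nat.pos_of_ne_zero (fun h => by
    rw [h, mul_zero] at h2
    exact Nat.card_pos.ne' h2.symm)
  apply Nat.eq_of_mul_eq_mul_right h5
  rw [h1, mul_assoc, h2, h4, mul_comm]

/-- Transitivity of `P` on the coset. -/
theorem orbit_surj (hG : 2 < Nat.card G)
    (hχ : Nat.card {C : ConjClasses G // ∃ g ∈ C.carrier, (χ : G → ℂ) g ≠ 0} = 2)
    (hN : ∀ g : G, g ∈ N ↔ (χ : G → ℂ) g ≠ 0) (hNp : IsPGroup p N) (P : Sylow p G)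
    {z : G} (hzN : z ∉ N) (hcomm : ∀ u ∈ (P : Subgroup G), z⁻¹ * u * z * u⁻¹ ∈ N) :
    ∀ n ∈ N, ∃ u ∈ (P : Subgroup G), u * z * u⁻¹ = z * n := by
  classical
  let π : G →* G ⧸ N := QuotientGroup.mk' N
  let CQ : Subgroup (G ⧸ N) := Subgroup.centralizer ({(z : G ⧸ N)} : Set (G ⧸ N))
  let Ct : Subgroup G := CQ.comap π
  let C : Subgroup G := Subgroup.centralizer ({z} : Set G)
  have hcardCt : Nat.card Ct = Nat.card N * Nat.card C := by
    rw [card_comap_mk N CQ]
    congr 1
    exact (card_centralizer_eq χ N hG hχ hN hzN).symm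
  obtain ⟨e, he⟩ := IsPGroup.iff_card.mp hNp
  have hp : p.Prime := Fact.out
  -- the stabilizer
  let act : MulAction (P : Subgroup G) G :=
    MulAction.compHom G (ConjAct.toConjAct.toMonoidHom.comp (P : Subgroup G).subtype)
  have hsmul : ∀ (u : (P : Subgroup G)) (g : G), u • g = (u : G) * g * (u : G)⁻¹ := fun u g => rfl
  let St : Subgroup (P : Subgroup G) := MulAction.stabilizer (P : Subgroup G) z
  let S : Subgroup G := St.map (P : Subgroup G).subtype
  have hcardS : Nat.card S = Nat.card St :=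
    Subgroup.card_map_of_injective (P : Subgroup G).subtype_injective
  have hSP : S ≤ (P : Subgroup G) := by
    rintro _ ⟨u, -, rfl⟩
    exact u.2
  have hSC : S ≤ C := by
    rintro _ ⟨u, hu, rfl⟩
    rw [Subgroup.mem_centralizer_singleton_iff]
    have hu' : u • z = z := hu
    rw [hsmul] at hu'
    show (u : G) * z = z * (u : G)
    calc (u : G) * z = ((u : G) * z * (u : G)⁻¹) * (u : G) := by group
      _ = z * (u : G) := by rw [hu']
  obtain ⟨s, hs⟩ := IsPGroup.iff_card.mp (P.isPGroup'.to_le hSP)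
  -- p-adic inequality
  have hdvd1 : p ^ e * p ^ s ∣ Nat.card G := by
    have h1 : Nat.card N * Nat.card C ∣ Nat.card G := by
      rw [← hcardCt]
      exact Subgroup.card_subgroup_dvd_card Ct
    have h2 : p ^ e * p ^ s ∣ Nat.card N * Nat.card C := by
      rw [← he, ← hs]
      exact mul_dvd_mul_left _ (Subgroup.card_dvd_of_le hSC)
    exact h2.trans h1
  have hG0 : Nat.card G ≠ 0 := Nat.card_pos.ne'
  have hle : e + s ≤ (Nat.card G).factorization p := by
    rw [← pow_add] at hdvd1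
    exact (hp.pow_dvd_iff_le_factorization hG0).mp hdvd1
  -- orbit
  have hO : Nat.card (MulAction.orbit (P : Subgroup G) z) *
      Nat.card (MulAction.stabilizer (P : Subgroup G) z) = Nat.card (P : Subgroup G) := by
    have h0 := Subgroup.card_mul_index (MulAction.stabilizer (P : Subgroup G) z)
    rw [MulAction.index_stabilizer, mul_comm] at h0
    exact h0
  rw [Sylow.card_eq_multiplicity P] at hO
  have hSt : Nat.card (MulAction.stabilizer (P : Subgroup G) z) = p ^ s := by
    rw [← hs, hcardS]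
  rw [hSt] at hO
  have hOcard : Nat.card (MulAction.orbit (P : Subgroup G) z) =
      p ^ ((Nat.card G).factorization p - s) := by
    have hs' : s ≤ (Nat.card G).factorization p := by omega
    apply Nat.eq_of_mul_eq_mul_right (pow_pos hp.pos s)
    rw [hO, ← pow_add, Nat.sub_add_cancel hs']
  have hqle : Nat.card N ≤ Nat.card (MulAction.orbit (P : Subgroup G) z) := by
    rw [hOcard, he]
    exact Nat.pow_le_pow_right hp.pos (by omega)
  -- the map to `N`
  have hmemN : ∀ y : MulAction.orbit (P : Subgroup G) z, z⁻¹ * (y : G) ∈ N := by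
    rintro ⟨_, u, rfl⟩
    have := hcomm u u.2
    simp only [hsmul]
    have h2 : z⁻¹ * ((u : G) * z * (u : G)⁻¹) = z⁻¹ * u * z * (u : G)⁻¹ := by group
    rw [h2]
    exact this
  let f : MulAction.orbit (P : Subgroup G) z → N := fun y => ⟨z⁻¹ * (y : G), hmemN y⟩
  have hinj : Function.Injective f := by
    intro a b hab
    have h1 : z⁻¹ * (a : G) = z⁻¹ * (b : G) := congrArg Subtype.val hab
    exact Subtype.ext (mul_left_cancel h1)
  have hbij := (Function.Injective.bijective_of_nat_card_le hinj hqle)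
  intro n hn
  obtain ⟨⟨_, u, rfl⟩, hy⟩ := hbij.2 ⟨n, hn⟩
  refine ⟨u, u.2, ?_⟩
  have h3 : z⁻¹ * (u • z) = n := congrArg Subtype.val hy
  rw [← h3, hsmul]
  group

end Cfsg.Agent.Lib.Gagola.Camina
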