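import Cfsg.Agent.Lib.Gagola.Basic
import Cfsg.Agent.Lib.Char.Eigen
import Cfsg.Agent.Lib.Char.Central
import Cfsg.Agent.Lib.Char.CliffordCorr
import Mathlib.GroupTheory.Sylow
import Mathlib.GroupTheory.PGroup
import Mathlib.Tactic

/-!
# Gagola's theorem: the support of `χ` is a normal `p`-subgroup.

Let `χ` be irreducible, nonzero on exactly two classes, and assume that the support `N` of `χ` is a
nontrivial normal `p`-subgroup. Then

* `exists_data`: `χ c = -m`, `χ 1 = (|N| - 1) m`, `|G| = (|N| - 1) |N| m²`.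
* `not_dvd_of_prime_ne`: `m` is not divisible by primes `r ≠ p`.
* `isPGroup_centralizer`, `centralizer_sylow`: `C_G(x)` is a Sylow subgroup for `x ∈ N`, `x ≠ 1`.
* `inertia_sylow`: the inertia groups of nontrivial irreducible characters are Sylow.
-/

set_option autoImplicit false
set_option linter.unusedSectionVars false

namespace Cfsg.Agent.Lib.Gagola.Normal

open Cfsg Module
open Cfsg.Agent.Lib.Char.Basic Cfsg.Agent.Lib.Char.Ortho Cfsg.Agent.Lib.Char.Complete
open Cfsg.Agent.Lib.Gagola.Basic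
open scoped ComplexConjugate

universe u

variable {G : Type u} [Group G] [Finite G] (χ : IrrCharacter G) {p : ℕ} [Fact p.Prime]
  (N : Subgroup G) [N.Normal]

/-- The integrality of the values of a character in function form. -/
theorem isIntegral_value {H : Type*} [Group H] [Finite H] {φ : H → ℂ} (hφ : IsCharacter H φ)
    (g : H) : IsIntegral ℤ (φ g) := by
  obtain ⟨n, ρ, rfl⟩ := hφ
  exact Cfsg.Agent.Lib.Char.Eigen.character_isIntegral ρ g

/-- The basic numerical data. -/
theorem exists_data (hG : 2 < Nat.card G)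
    (hχ : Nat.card {C : ConjClasses G // ∃ g ∈ C.carrier, (χ : G → ℂ) g ≠ 0} = 2)
    (hN : ∀ g : G, g ∈ N ↔ (χ : G → ℂ) g ≠ 0) :
    ∃ (c : G) (m : ℕ), c ≠ 1 ∧ c ∈ N ∧ 0 < m ∧ (∀ x ∈ N, x ≠ 1 → IsConj x c) ∧
      (∀ x, IsConj x c → x ∈ N ∧ x ≠ 1) ∧
      Nat.card {x : G // IsConj x c} = Nat.card N - 1 ∧
      (χ : G → ℂ) c = -(m : ℂ) ∧
      (χ : G → ℂ) 1 = ((Nat.card N - 1 : ℕ) : ℂ) * m ∧
      Nat.card G = (Nat.card N - 1) * Nat.card N * m ^ 2 := by
  classical
  obtain ⟨c, hc1, hc0, hsupp⟩ := exists_class_data χ hχ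
  have hcN : c ∈ N := (hN c).mpr hc0
  have hconj : ∀ x ∈ N, x ≠ 1 → IsConj x c := by
    intro x hx hx1
    rcases hsupp x ((hN x).mp hx) with h | h
    · exact absurd h hx1
    · exact h
  have hconj' : ∀ x, IsConj x c → x ∈ N ∧ x ≠ 1 := by
    intro x hx
    have hc0' : (χ : G → ℂ) x ≠ 0 := by
      rw [isClassFunction_iff_isConj.mp (isClassFunction_of_isIrrCharacter χ.2) _ _ hx]
      exact hc0
    refine ⟨(hN x).mpr hc0', ?_⟩
    rintro rfl
    exact hc1 (isConj_one_right.mp hx)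
  have hcard : Nat.card {x : G // IsConj x c} = Nat.card N - 1 := by
    have h1 : {x : G | IsConj x c} = (N : Set G) \ {1} := by
      ext x
      simp only [Set.mem_ofPred_eq, Set.mem_sdiff, SetLike.mem_coe, Set.mem_singleton_iff]
      exact ⟨hconj' x, fun h => hconj x h.1 h.2⟩
    have h2 : Nat.card {x : G // IsConj x c} = Set.ncard {x : G | IsConj x c} :=
      Nat.card_coe_set_eq _
    have h3 : Nat.card N = Set.ncard (N : Set G) := Nat.card_coe_set_eq _
    rw [h2, h1, Set.ncard_sdiff_singleton_of_mem (SetLike.mem_coe.mpr N.one_mem), h3]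
  have ht0 : Nat.card N - 1 ≠ 0 := by
    rw [← hcard]
    exact (card_class_pos c).ne'
  have hq : 2 ≤ Nat.card N := by omega
  have h1 := deg_add_eq_zero χ hG hc1 hsupp
  rw [hcard] at h1
  obtain ⟨d, hd0, hd⟩ := exists_pos_deg_of_isIrr χ.2
  have htc : ((Nat.card N - 1 : ℕ) : ℂ) ≠ 0 := Nat.cast_ne_zero.mpr ht0
  have hb : (d : ℂ) / ((Nat.card N - 1 : ℕ) : ℂ) = - (χ : G → ℂ) c := by
    rw [div_eq_iff htc]
    rw [hd] at h1
    linear_combination h1
  have hint : IsIntegral ℤ ((d : ℂ) / ((Nat.card N - 1 : ℕ) : ℂ)) := by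
    rw [hb]
    exact (isIntegral_value (isCharacter_of_isIrrCharacter χ.2) c).neg
  obtain ⟨m, hm⟩ := Cfsg.Agent.Lib.Char.Central.nat_dvd_of_isIntegral_div ht0 hint
  have hm0 : 0 < m := by
    rcases Nat.eq_zero_or_pos m with rfl | h
    · simp only [mul_zero] at hm; omega
    · exact h
  have hbm : (χ : G → ℂ) c = -(m : ℂ) := by
    have : (d : ℂ) = ((Nat.card N - 1 : ℕ) : ℂ) * m := by rw [hm]; push_cast; ring
    rw [this, mul_div_cancel_left₀ _ htc] at hb
    rw [hb]; ring
  have hdm : (χ : G → ℂ) 1 = ((Nat.card N - 1 : ℕ) : ℂ) * m := by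
    rw [hd, hm]; push_cast; ring
  refine ⟨c, m, hc1, hcN, hm0, hconj, hconj', hcard, hbm, hdm, ?_⟩
  let _ := Fintype.ofFinite G
  have hin := classInner_self_of_isIrr χ.2
  rw [classInner_def] at hin
  have hcf := isClassFunction_of_isIrrCharacter χ.2
  have hs := sum_mul_eq χ hc1 hsupp (f := fun g => conj ((χ : G → ℂ) g))
    (fun g h => by simp only; rw [hcf g h])
  have hc : (Nat.card G : ℂ) ≠ 0 := card_ne_zero_complex
  have hin2 : ∑ g : G, (χ : G → ℂ) g * conj ((χ : G → ℂ) g) = Nat.card G := by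
    field_simp at hin
    linear_combination hin
  rw [hin2, hcard, hdm, hbm] at hs
  have hconjcast : ∀ a : ℕ, conj (a : ℂ) = a := fun a => by simp
  simp only [map_mul, map_neg, hconjcast] at hs
  have hfinal : ((Nat.card G : ℕ) : ℂ) =
      (((Nat.card N - 1) * Nat.card N * m ^ 2 : ℕ) : ℂ) := by
    rw [hs]
    have hqq : ((Nat.card N : ℕ) : ℂ) = ((Nat.card N - 1 : ℕ) : ℂ) + 1 := by
      have : Nat.card N = (Nat.card N - 1) + 1 := by omega
      conv_lhs => rw [this]
      push_cast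
      ring
    push_cast
    rw [hqq]
    ring
  exact_mod_cast hfinal

/-- A prime different from `p` does not divide `m`. -/
theorem not_dvd_of_prime_ne (hNp : IsPGroup p N) (hN : ∀ g : G, g ∈ N ↔ (χ : G → ℂ) g ≠ 0)
    {m t : ℕ} (ht : t ≠ 0) (hm : 0 < m) (hd : (χ : G → ℂ) 1 = (t : ℂ) * m)
    (hcard : Nat.card G = t * Nat.card N * m ^ 2) {r : ℕ} (hr : r.Prime) (hrp : r ≠ p) :
    ¬ r ∣ m := by
  classical
  let _ := Fintype.ofFinite G
  have : Fact r.Prime := ⟨hr⟩
  let R : Sylow r G := default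
  let _ : Fintype (R : Subgroup G) := Fintype.ofFinite _
  have hRN : ∀ x : (R : Subgroup G), (x : G) ∈ N → x = 1 := by
    intro x hx
    have hdis := IsPGroup.disjoint_of_ne r p hrp (R : Subgroup G) N R.isPGroup' hNp
    have := Subgroup.disjoint_def.mp hdis x.2 hx
    exact Subtype.ext this
  have hres : IsCharacter (R : Subgroup G) (fun x => (χ : G → ℂ) x) :=
    isCharacter_restrict _ (isCharacter_of_isIrrCharacter χ.2)
  have hone : IsCharacter (R : Subgroup G) (fun _ => (1 : ℂ)) := isCharacter_one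
  obtain ⟨k, hk⟩ := exists_nat_classInner hres hone
  rw [classInner_def] at hk
  have hsum : ∑ x : (R : Subgroup G), (χ : G → ℂ) x * conj (1 : ℂ) = (χ : G → ℂ) 1 := by
    rw [Finset.sum_eq_single (1 : (R : Subgroup G))]
    · simp
    · intro x _ hx
      have : (χ : G → ℂ) x = 0 := by
        by_contra h
        exact hx (hRN x ((hN x).mpr h))
      rw [this, zero_mul]
    · simp
  rw [hsum, hd] at hk
  have hRc : (Nat.card (R : Subgroup G) : ℂ) ≠ 0 := card_ne_zero_complex
  have hdvdC : ((t * m : ℕ) : ℂ) = ((Nat.card (R : Subgroup G) * k : ℕ) : ℂ) := by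
    push_cast
    field_simp at hk
    linear_combination hk
  have hdvd : Nat.card (R : Subgroup G) ∣ t * m := ⟨k, by exact_mod_cast hdvdC⟩
  rw [Sylow.card_eq_multiplicity R] at hdvd
  have htm : t * m ≠ 0 := mul_ne_zero ht hm.ne'
  have hle := (hr.pow_dvd_iff_le_factorization htm).mp hdvd
  have hN0 : Nat.card N ≠ 0 := Nat.card_pos.ne'
  have hG0 : t * Nat.card N ≠ 0 := mul_ne_zero ht hN0
  have hm2 : m ^ 2 ≠ 0 := pow_ne_zero _ hm.ne'
  rw [hcard, Nat.factorization_mul hG0 hm2, Nat.factorization_mul ht hN0, Nat.factorization_pow,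
    Nat.factorization_mul ht hm.ne'] at hle
  simp only [Finsupp.coe_add, Pi.add_apply, Finsupp.coe_smul, Pi.smul_apply, smul_eq_mul] at hle
  intro hrm
  have h1 : 1 ≤ m.factorization r := (hr.dvd_iff_one_le_factorization hm.ne').mp hrm
  omega

/-- A number all of whose prime factors are `p`, is a power of `p`. -/
theorem exists_pow_of_prime_factors {m : ℕ} (hm : 0 < m) (h : ∀ r : ℕ, r.Prime → r ≠ p → ¬ r ∣ m) :
    ∃ k, m = p ^ k :=
  ⟨_, Nat.eq_prime_pow_of_unique_prime_dvd hm.ne' (fun {d} hd hdm => by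
    by_contra hne
    exact h d hd hne hdm)⟩

/-- The order of a subgroup `S` of `G` is `p`-power if it is `q e m²` of such shape. -/
theorem isPGroup_of_card_eq {S : Subgroup G} {a b : ℕ} (ha : ∃ k, a = p ^ k) (hb : ∃ k, b = p ^ k)
    (h : Nat.card S = a * b ^ 2) : IsPGroup p S := by
  obtain ⟨k, rfl⟩ := ha
  obtain ⟨l, rfl⟩ := hb
  apply IsPGroup.of_card (n := k + l * 2)
  rw [h, pow_add, pow_mul]

/-- The centralizer of a nontrivial element of `N` is a Sylow `p`-subgroup of `G`. -/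
theorem centralizer_sylow (hG : 2 < Nat.card G)
    (hχ : Nat.card {C : ConjClasses G // ∃ g ∈ C.carrier, (χ : G → ℂ) g ≠ 0} = 2)
    (hN : ∀ g : G, g ∈ N ↔ (χ : G → ℂ) g ≠ 0) (hNp : IsPGroup p N) {x : G} (hx : x ∈ N)
    (hx1 : x ≠ 1) : ∃ P : Sylow p G, Subgroup.centralizer ({x} : Set G) = P := by
  classical
  obtain ⟨c, m, hc1, hcN, hm0, hconj, hconj', hcard, hbm, hdm, hGc⟩ := exists_data χ N hG hχ hN
  have ht0 : Nat.card N - 1 ≠ 0 := by
    rw [← hcard]
    exact (card_class_pos c).ne'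
  have hmp : ∃ k, m = p ^ k := exists_pow_of_prime_factors hm0 fun r hr hrp =>
    not_dvd_of_prime_ne χ N hNp hN ht0 hm0 hdm hGc hr hrp
  obtain ⟨e, he⟩ := IsPGroup.iff_card.mp hNp
  have hxc := hconj x hx hx1
  have hcl : Nat.card {y : G // IsConj y x} = Nat.card N - 1 := by
    rw [← hcard]
    apply Nat.card_congr
    exact Equiv.subtypeEquivRight fun y => ⟨fun h => h.trans hxc, fun h => h.trans hxc.symm⟩
  have h1 := card_isConj_mul_card_centralizer x
  rw [hcl, hGc, mul_assoc] at h1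
  have h2 : Nat.card (Subgroup.centralizer ({x} : Set G)) = Nat.card N * m ^ 2 :=
    Nat.eq_of_mul_eq_mul_left (Nat.pos_of_ne_zero ht0) h1
  have hpg : IsPGroup p (Subgroup.centralizer ({x} : Set G)) :=
    isPGroup_of_card_eq ⟨e, he⟩ hmp h2
  have hidx : (Subgroup.centralizer ({x} : Set G)).index = Nat.card N - 1 := by
    have h3 := Subgroup.card_mul_index (Subgroup.centralizer ({x} : Set G))
    rw [h2, hGc] at h3
    have h4 : 0 < Nat.card N * m ^ 2 := Nat.mul_pos Nat.card_pos (pow_pos hm0 2)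
    apply Nat.eq_of_mul_eq_mul_left h4
    rw [h3]
    ring
  have hpnd : ¬ p ∣ (Subgroup.centralizer ({x} : Set G)).index := by
    rw [hidx]
    intro hdvd
    have he0 : e ≠ 0 := by
      rintro rfl
      simp only [pow_zero] at he
      omega
    have hq : p ∣ Nat.card N := by rw [he]; exact dvd_pow_self p he0
    have hq1 : 1 ≤ Nat.card N := Nat.card_pos
    have := (Nat.dvd_sub hq hdvd)
    have h5 : Nat.card N - (Nat.card N - 1) = 1 := by omega
    rw [h5] at this
    exact (Fact.out : p.Prime).one_lt.ne' (Nat.dvd_one.mp this)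
  exact ⟨IsPGroup.toSylow hpg hpnd, (IsPGroup.toSylow_coe hpg hpnd).symm⟩

open Cfsg.Agent.Lib.Char.Conj Cfsg.Agent.Lib.Char.CliffordCorr in
/-- The inertia group of a nontrivial irreducible character of `N` is a Sylow `p`-subgroup. -/
theorem inertia_sylow (hG : 2 < Nat.card G)
    (hχ : Nat.card {C : ConjClasses G // ∃ g ∈ C.carrier, (χ : G → ℂ) g ≠ 0} = 2)
    (hN : ∀ g : G, g ∈ N ↔ (χ : G → ℂ) g ≠ 0) (hNp : IsPGroup p N) [Fintype G] [Fintype N]
    (hNn : N.Normal) (μ : N → ℂ) (hμ : IsIrrCharacter N μ) (hμ1 : μ ≠ fun _ => (1 : ℂ)) :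
    ∃ P : Sylow p G, inertia hNn μ = P := by
  classical
  obtain ⟨c, m, hc1, hcN, hm0, hconj, hconj', hcard, hbm, hdm, hGc⟩ := exists_data χ N hG hχ hN
  have ht0 : Nat.card N - 1 ≠ 0 := by
    rw [← hcard]
    exact (card_class_pos c).ne'
  have hmp : ∃ k, m = p ^ k := exists_pow_of_prime_factors hm0 fun r hr hrp =>
    not_dvd_of_prime_ne χ N hNp hN ht0 hm0 hdm hGc hr hrp
  obtain ⟨e, he⟩ := IsPGroup.iff_card.mp hNp
  have hq : 2 ≤ Nat.card N := by omega
  obtain ⟨a, ha0, ha⟩ := exists_pos_deg_of_isIrr hμ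
  have hqc : ((Nat.card N - 1 : ℕ) : ℂ) = (Nat.card N : ℂ) - 1 := by
    rw [Nat.cast_sub (by omega)]; simp
  -- the multiplicity
  have hinner : classInner (fun n : N => (χ : G → ℂ) n) μ = m * a := by
    rw [classInner_def]
    have hterm : ∀ n : N, (χ : G → ℂ) n * conj (μ n) =
        -(m : ℂ) * conj (μ n) + if n = 1 then ((Nat.card N : ℂ) * m) * (a : ℂ) else 0 := by
      intro n
      by_cases hn : n = 1
      · subst hn
        simp only [OneMemClass.coe_one, if_true, hdm, ha, Complex.conj_natCast, hqc]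
        ring
      · have hn' : (n : G) ≠ 1 := fun h => hn (Subtype.ext h)
        have hc' := hconj n n.2 hn'
        rw [isClassFunction_iff_isConj.mp (isClassFunction_of_isIrrCharacter χ.2) _ _ hc', hbm]
        simp [hn]
    rw [Finset.sum_congr rfl fun n _ => hterm n, Finset.sum_add_distrib, Finset.sum_ite_eq',
      ← Finset.mul_sum]
    have h0 : ∑ n : N, conj (μ n) = 0 := by
      have h1 := classInner_eq_zero_of_isIrr_of_ne
        (Cfsg.Agent.Lib.Char.Burnside.isIrrCharacter_one (G := N)) hμ (Ne.symm hμ1)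
      rw [classInner_def] at h1
      have h2 := (mul_eq_zero.mp h1).resolve_left (inv_ne_zero card_ne_zero_complex)
      simpa using h2
    rw [h0]
    simp only [mul_zero, zero_add, Finset.mem_univ, if_true]
    have hNc : (Nat.card N : ℂ) ≠ 0 := card_ne_zero_complex
    field_simp
  have hcon : classInner (fun n : N => (χ : G → ℂ) n) μ ≠ 0 := by
    rw [hinner]
    exact mul_ne_zero (Nat.cast_ne_zero.mpr hm0.ne') (Nat.cast_ne_zero.mpr ha0.ne')
  have hdeg := deg_eq_of_constituent hNn χ.2 hμ hcon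
  rw [hinner, hdm, ha] at hdeg
  set i := (inertia hNn μ).index with hi
  have hti : Nat.card N - 1 = a ^ 2 * i := by
    have h1 : ((Nat.card N - 1 : ℕ) : ℂ) * m = ((a ^ 2 * i : ℕ) : ℂ) * m := by
      rw [hdeg]; push_cast; ring
    have hmc : (m : ℂ) ≠ 0 := Nat.cast_ne_zero.mpr hm0.ne'
    have h2 := mul_right_cancel₀ hmc h1
    exact_mod_cast h2
  have hi0 : 0 < i := by
    apply Nat.pos_of_ne_zero
    intro h0
    rw [h0] at hti
    simp only [mul_zero] at hti
    exact ht0 hti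
  -- the order of the inertia group
  have hcardI : Nat.card (inertia hNn μ) = Nat.card N * (a * m) ^ 2 := by
    have h3 := Subgroup.card_mul_index (inertia hNn μ)
    rw [hGc, hti, ← hi] at h3
    apply Nat.eq_of_mul_eq_mul_right hi0
    rw [h3]
    ring
  have hap : ∃ k, a = p ^ k := by
    obtain ⟨n, ρ, hρ, hρχ⟩ := hμ
    have : ρ.IsIrreducible := hρ
    have h1 := Cfsg.Agent.Lib.Char.Central.finrank_dvd_card ρ
    have h2 : finrank ℂ (Fin n → ℂ) = a := by
      have h3 := congrFun hρχ 1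
      rw [Representation.char_one, ha] at h3
      exact_mod_cast h3
    rw [h2, he] at h1
    obtain ⟨k, -, hk⟩ := (Nat.dvd_prime_pow (Fact.out : p.Prime)).mp h1
    exact ⟨k, hk⟩
  have hamp : ∃ k, a * m = p ^ k := by
    obtain ⟨k, rfl⟩ := hap
    obtain ⟨l, rfl⟩ := hmp
    exact ⟨k + l, (pow_add _ _ _).symm⟩
  have hpg : IsPGroup p (inertia hNn μ) := isPGroup_of_card_eq ⟨e, he⟩ hamp hcardI
  have hpnd : ¬ p ∣ (inertia hNn μ).index := by
    rw [← hi]
    intro hdvd
    have he0 : e ≠ 0 := by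
      rintro rfl
      simp only [pow_zero] at he
      omega
    have hqd : p ∣ Nat.card N := by rw [he]; exact dvd_pow_self p he0
    have ht : p ∣ Nat.card N - 1 := by rw [hti]; exact Dvd.dvd.mul_left hdvd _
    have := Nat.dvd_sub hqd ht
    have h5 : Nat.card N - (Nat.card N - 1) = 1 := by omega
    rw [h5] at this
    exact (Fact.out : p.Prime).one_lt.ne' (Nat.dvd_one.mp this)
  exact ⟨IsPGroup.toSylow hpg hpnd, (IsPGroup.toSylow_coe hpg hpnd).symm⟩

end Cfsg.Agent.Lib.Gagola.Normal
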