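import Mathlib
import Cfsg.Agent.Lib.Gagola.Camina
import Cfsg.Agent.Lib.Core.Basic
import Cfsg.Agent.Lib.Frobenius.Basic
import Cfsg.Agent.S0199

/-!
# Gagola's theorem: when the support is self-centralizing

Setting: `χ` irreducible, nonzero on exactly two classes, with support the normal `p`-subgroup `N`.

* `Data`: this setting.
* `comm`: `N` is commutative.
* `exists_fixed`: a `p`-subgroup fixes a nontrivial element of `N`.
* `centralizer_eq_pCore`: `C_G(N) = O_p(G)`.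
* `sylow_eq_of_odd`, `sylow_eq_two`: if `C_G(N) ≤ N` (and `O_2(G/N) = 1` when `p = 2`), then `N` is a
  Sylow subgroup.
* `exists_complement`, `pCore_eq_of_complement`: `N = O_p(G)` iff doubly transitive Frobenius group.
-/

set_option autoImplicit false
set_option linter.unusedSectionVars false
set_option linter.style.haveILetI false

namespace Cfsg.Agent.Lib.Gagola.Split

open Cfsg Cfsg.Agent.Lib.Gagola.Basic Cfsg.Agent.Lib.Gagola.Normal Cfsg.Agent.Lib.Gagola.Camina
open Cfsg.Agent.Lib.Core.Basic Cfsg.Agent.Lib.Char.Complete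
open MulAction

universe u

variable {G : Type u} [Group G] [Finite G] {p : ℕ} [hp : Fact p.Prime]

/-- Gagola's setting. -/
structure Data (χ : IrrCharacter G) (p : ℕ) (N : Subgroup G) : Prop where
  hG : 2 < Nat.card G
  hχ : Nat.card {C : ConjClasses G // ∃ g ∈ C.carrier, (χ : G → ℂ) g ≠ 0} = 2
  hN : ∀ g : G, g ∈ N ↔ (χ : G → ℂ) g ≠ 0
  hNp : IsPGroup p N
  hN1 : N ≠ ⊥

variable {χ : IrrCharacter G} {N : Subgroup G} [hNn : N.Normal]

theorem isConj_of_mem (D : Data χ p N) {x y : G} (hx : x ∈ N) (hx1 : x ≠ 1) (hy : y ∈ N)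
    (hy1 : y ≠ 1) : IsConj x y := by
  obtain ⟨c, m, hc1, hcN, hm0, hconj, hconj', hcard, hbm, hdm, hGc⟩ :=
    exists_data χ N D.hG D.hχ D.hN
  exact (hconj x hx hx1).trans (hconj y hy hy1).symm

theorem nontrivial_N (D : Data χ p N) : Nontrivial N :=
  (Subgroup.nontrivial_iff_ne_bot N).mpr D.hN1

theorem dvd_card_N (D : Data χ p N) : p ∣ Nat.card N := by
  haveI := nontrivial_N D
  obtain ⟨n, hn0, hn⟩ := D.hNp.nontrivial_iff_card.mp inferInstance
  rw [hn]
  exact dvd_pow_self _ hn0.ne'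

/-- A `p`-subgroup fixes a nontrivial element of `N`. -/
theorem exists_fixed (D : Data χ p N) {Y : Subgroup G} (hY : IsPGroup p Y) :
    ∃ a ∈ N, a ≠ 1 ∧ ∀ y ∈ Y, y * a * y⁻¹ = a := by
  letI act : MulAction Y N := MulAction.compHom N ((MulAut.conjNormal (H := N)).comp Y.subtype)
  have hsmul : ∀ (y : Y) (n : N), ((y • n : N) : G) = (y : G) * n * (y : G)⁻¹ := fun y n => by
    change ((MulAut.conjNormal (y : G) n : N) : G) = _
    rw [MulAut.conjNormal_apply]
  have h1 : (1 : N) ∈ fixedPoints Y N := by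
    rintro y
    apply Subtype.ext
    rw [hsmul]
    simp
  obtain ⟨b, hb, hne⟩ := hY.exists_fixed_point_of_prime_dvd_card_of_fixed_point N (dvd_card_N D) h1
  refine ⟨b, b.2, fun h => hne (Subtype.ext h.symm), fun y hy => ?_⟩
  have := hb ⟨y, hy⟩
  rw [← hsmul ⟨y, hy⟩ b, this]

/-- `N` is commutative. -/
theorem comm (D : Data χ p N) {a b : G} (ha : a ∈ N) (hb : b ∈ N) : a * b = b * a := by
  haveI := nontrivial_N D
  have hcen := D.hNp.center_nontrivial
  obtain ⟨⟨z, hz⟩, hz1⟩ := exists_ne (1 : Subgroup.center N)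
  have hz1' : (z : G) ≠ 1 := fun h => hz1 (Subtype.ext (Subtype.ext h))
  by_cases ha1 : a = 1
  · rw [ha1, one_mul, mul_one]
  obtain ⟨c, hc⟩ := isConj_iff.mp (isConj_of_mem D ha ha1 z.2 hz1')
  have hm : c * b * c⁻¹ ∈ N := hNn.conj_mem b hb c
  have h1 := Subgroup.mem_center_iff.mp hz ⟨c * b * c⁻¹, hm⟩
  have h2 : c * b * c⁻¹ * (z : G) = (z : G) * (c * b * c⁻¹) := congrArg Subtype.val h1
  rw [← hc] at h2
  have h3 : c * (b * a) * c⁻¹ = c * (a * b) * c⁻¹ := by
    calc c * (b * a) * c⁻¹ = c * b * c⁻¹ * (c * a * c⁻¹) := by group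
      _ = c * a * c⁻¹ * (c * b * c⁻¹) := h2
      _ = c * (a * b) * c⁻¹ := by group
  have h4 := mul_left_cancel (mul_right_cancel h3)
  exact h4.symm

theorem isPGroup_centralizer_of_mem (D : Data χ p N) {x : G} (hx : x ∈ N) (hx1 : x ≠ 1) :
    IsPGroup p (Subgroup.centralizer ({x} : Set G)) := by
  obtain ⟨P, hP⟩ := centralizer_sylow χ N D.hG D.hχ D.hN D.hNp hx hx1
  rw [hP]
  exact P.isPGroup'

theorem exists_ne_one (D : Data χ p N) : ∃ a ∈ N, a ≠ 1 := by
  obtain ⟨⟨a, ha⟩, ha1⟩ := Subgroup.ne_bot_iff_exists_ne_one.mp D.hN1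
  exact ⟨a, ha, fun h => ha1 (Subtype.ext h)⟩

/-- `C_G(N)` is a `p`-group. -/
theorem isPGroup_centralizer_N (D : Data χ p N) :
    IsPGroup p (Subgroup.centralizer (N : Set G)) := by
  obtain ⟨a, ha, ha1⟩ := exists_ne_one D
  refine (isPGroup_centralizer_of_mem D ha ha1).to_le ?_
  intro x hx
  rw [Subgroup.mem_centralizer_iff] at hx ⊢
  intro y hy
  rw [Set.mem_singleton_iff.mp hy]
  exact hx a ha

/-- `O_p(G) ≤ C_G(N)`. -/
theorem pCore_le_centralizer (D : Data χ p N) :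
    pCore p G ≤ Subgroup.centralizer (N : Set G) := by
  obtain ⟨a, ha, ha1, hfix⟩ := exists_fixed D (pCore_isPGroup (p := p) (G := G))
  intro r hr
  rw [Subgroup.mem_centralizer_iff]
  intro x hx
  by_cases hx1 : x = 1
  · rw [hx1, one_mul, mul_one]
  obtain ⟨c, hc⟩ := isConj_iff.mp (isConj_of_mem D ha ha1 hx hx1)
  have hr' : c⁻¹ * r * c ∈ pCore p G := by
    have := (inferInstance : (pCore p G).Normal).conj_mem r hr c⁻¹
    simpa using this
  have h1 := hfix _ hr'
  rw [← hc]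
  have h2 : c⁻¹ * r * c * a = a * (c⁻¹ * r * c) := by
    rw [mul_inv_eq_iff_eq_mul.mp h1]
  calc c * a * c⁻¹ * r = c * (a * (c⁻¹ * r * c)) * c⁻¹ := by group
    _ = c * (c⁻¹ * r * c * a) * c⁻¹ := by rw [h2]
    _ = r * (c * a * c⁻¹) := by group

/-- `C_G(N) = O_p(G)`. -/
theorem centralizer_eq_pCore (D : Data χ p N) :
    Subgroup.centralizer (N : Set G) = pCore p G :=
  le_antisymm (le_pCore inferInstance (isPGroup_centralizer_N D)) (pCore_le_centralizer D)

theorem le_pCore_N (D : Data χ p N) : N ≤ pCore p G := le_pCore hNn D.hNp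

/-- Odd `p`. -/
theorem sylow_eq_of_odd (D : Data χ p N) (hC : Subgroup.centralizer (N : Set G) ≤ N) (hp2 : p ≠ 2)
    (P : Sylow p G) : (P : Subgroup G) = N := by
  classical
  obtain ⟨c, m, hc1, hcN, hm0, hconj, hconj', hcard, hbm, hdm, hGc⟩ :=
    exists_data χ N D.hG D.hχ D.hN
  have hNP : N ≤ (P : Subgroup G) := D.hNp.le_sylow_of_normal P
  obtain ⟨e, he⟩ := IsPGroup.iff_card.mp D.hNp
  have hpodd : Odd p := hp.out.odd_of_ne_two hp2
  have hNodd : Odd (Nat.card N) := by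
    rw [he]
    exact hpodd.pow
  have hN3 : 2 ≤ Nat.card N := by
    have := dvd_card_N D
    exact hp.out.two_le.trans (Nat.le_of_dvd Nat.card_pos this)
  have h2 : 2 ∣ Nat.card G := by
    rw [hGc]
    obtain ⟨k, hk⟩ := hNodd
    have : 2 ∣ Nat.card N - 1 := ⟨k, by omega⟩
    exact Dvd.dvd.mul_right (Dvd.dvd.mul_right this _) _
  obtain ⟨t, ht⟩ := exists_prime_orderOf_dvd_card' (G := G) 2 h2
  have ht2 : t * t = 1 := by
    rw [← pow_two, ← ht]
    exact pow_orderOf_eq_one t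
  have htinv : t⁻¹ = t := inv_eq_of_mul_eq_one_left ht2
  have hfix : ∀ a ∈ N, t * a * t⁻¹ = a → a = 1 := by
    intro a ha hta
    by_contra ha1
    have h1 := isPGroup_centralizer_of_mem D ha ha1
    have htm : t ∈ Subgroup.centralizer ({a} : Set G) := by
      rw [Subgroup.mem_centralizer_iff]
      intro y hy
      rw [Set.mem_singleton_iff.mp hy]
      exact (mul_inv_eq_iff_eq_mul.mp hta).symm
    obtain ⟨k, hk⟩ := (IsPGroup.iff_orderOf.mp h1) ⟨t, htm⟩
    rw [Subgroup.orderOf_mk, ht] at hk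
    have h3 : p ∣ 2 := by
      have hk0 : k ≠ 0 := by
        rintro rfl
        simp at hk
      rw [hk]
      exact dvd_pow_self _ hk0
    exact hp2 ((Nat.prime_dvd_prime_iff_eq hp.out Nat.prime_two).mp h3)
  have hinv : ∀ n ∈ N, t * n * t⁻¹ = n⁻¹ := by
    intro n hn
    have hm : t * n * t⁻¹ ∈ N := hNn.conj_mem n hn t
    have h1 : n * (t * n * t⁻¹) = 1 := by
      apply hfix _ (N.mul_mem hn hm)
      rw [htinv] at hm ⊢
      calc t * (n * (t * n * t)) * t = (t * n * t) * (n * (t * t)) := by group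
        _ = (t * n * t) * n := by rw [ht2, mul_one]
        _ = n * (t * n * t) := comm D hm hn
    exact eq_inv_of_mul_eq_one_right h1
  have hinv2 : ∀ (g : G), ∀ n ∈ N, (g * t * g⁻¹) * n * (g * t * g⁻¹)⁻¹ = n⁻¹ := by
    intro g n hn
    have hm : g⁻¹ * n * g ∈ N := by
      have := hNn.conj_mem n hn g⁻¹
      simpa using this
    have h1 := hinv _ hm
    calc (g * t * g⁻¹) * n * (g * t * g⁻¹)⁻¹ = g * (t * (g⁻¹ * n * g) * t⁻¹) * g⁻¹ := by group
      _ = g * (g⁻¹ * n * g)⁻¹ * g⁻¹ := by rw [h1]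
      _ = n⁻¹ := by group
  have hcoset : ∀ g : G, t * (g * t * g⁻¹) ∈ N := by
    intro g
    apply hC
    rw [Subgroup.mem_centralizer_iff]
    intro n hn
    have h1 := hinv2 g n hn
    have hinvN : n⁻¹ ∈ N := N.inv_mem hn
    have h2 := hinv _ hinvN
    have h3 : (t * (g * t * g⁻¹)) * n * (t * (g * t * g⁻¹))⁻¹ = n := by
      calc (t * (g * t * g⁻¹)) * n * (t * (g * t * g⁻¹))⁻¹
          = t * ((g * t * g⁻¹) * n * (g * t * g⁻¹)⁻¹) * t⁻¹ := by group
        _ = t * n⁻¹ * t⁻¹ := by rw [h1]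
        _ = n := by rw [h2, inv_inv]
    exact (mul_inv_eq_iff_eq_mul.mp h3).symm
  -- the Frattini argument
  have hsplit : ∀ g : G, ∃ n ∈ N, (n⁻¹ * g) * t * (n⁻¹ * g)⁻¹ = t := by
    intro g
    set n₀ : G := t * (g * t * g⁻¹) with hn₀
    have hn₀N : n₀ ∈ N := hcoset g
    have hgt : g * t * g⁻¹ = t * n₀ := by
      rw [hn₀, ← mul_assoc, ht2, one_mul]
    obtain ⟨k, hk⟩ := hNodd
    let n₁ : G := n₀⁻¹ ^ (k + 1)
    have hn₁N : n₁ ∈ N := pow_mem (N.inv_mem hn₀N) _
    have hsq : n₁ * n₁ = n₀⁻¹ := by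
      have h1 : (⟨n₀⁻¹, N.inv_mem hn₀N⟩ : N) ^ Nat.card N = 1 := pow_card_eq_one'
      have h2 : n₀⁻¹ ^ Nat.card N = 1 := congrArg Subtype.val h1
      calc n₁ * n₁ = n₀⁻¹ ^ (2 * k + 1) * n₀⁻¹ := by
            simp only [n₁]
            rw [← pow_add, ← pow_succ]
            congr 1
            ring
        _ = n₀⁻¹ := by rw [← hk, h2, one_mul]
    refine ⟨n₁, hn₁N, ?_⟩
    have hn₁inv : t * n₁⁻¹ * t⁻¹ = n₁ := by rw [hinv _ (N.inv_mem hn₁N), inv_inv]
    have hcm : n₁ * n₀ = n₀ * n₁ := comm D hn₁N hn₀N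
    have h1 : t * n₀ * n₁ = n₀⁻¹ * n₁⁻¹ * t := by
      have h2 := hinv _ hn₀N
      have h3 := hinv _ hn₁N
      calc t * n₀ * n₁ = (t * n₀ * t⁻¹) * (t * n₁ * t⁻¹) * t := by group
        _ = n₀⁻¹ * n₁⁻¹ * t := by rw [h2, h3]
    calc (n₁⁻¹ * g) * t * (n₁⁻¹ * g)⁻¹ = n₁⁻¹ * (g * t * g⁻¹) * n₁ := by group
      _ = n₁⁻¹ * (t * n₀ * n₁) := by rw [hgt]; group
      _ = n₁⁻¹ * (n₀⁻¹ * n₁⁻¹ * t) := by rw [h1]
      _ = (n₁ * n₀ * n₁)⁻¹ * t := by group
      _ = (n₀ * n₁ * n₁)⁻¹ * t := by rw [hcm]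
      _ = (n₀ * (n₁ * n₁))⁻¹ * t := by rw [mul_assoc]
      _ = t := by rw [hsq]; simp
  -- the complement
  let C : Subgroup G := Subgroup.centralizer ({t} : Set G)
  have hmemC : ∀ x, x ∈ C ↔ x * t * x⁻¹ = t := by
    intro x
    rw [Subgroup.mem_centralizer_iff]
    constructor
    · intro h
      have := h t (Set.mem_singleton t)
      rw [← this]
      group
    · intro h y hy
      rw [Set.mem_singleton_iff.mp hy]
      exact (mul_inv_eq_iff_eq_mul.mp h).symm
  have hNC : ∀ x ∈ N, x ∈ C → x = 1 := by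
    intro x hx hxC
    apply hfix x hx
    have h1 := (hmemC x).mp hxC
    have h2 : x * t = t * x := mul_inv_eq_iff_eq_mul.mp h1
    rw [← h2]
    group
  by_contra hne
  let P₀ : Subgroup G := (P : Subgroup G) ⊓ C
  have hdec : ∀ u ∈ (P : Subgroup G), ∃ n ∈ N, n⁻¹ * u ∈ P₀ := by
    intro u hu
    obtain ⟨n, hn, hh⟩ := hsplit u
    exact ⟨n, hn, (P : Subgroup G).mul_mem ((P : Subgroup G).inv_mem (hNP hn)) hu, (hmemC _).mpr hh⟩
  have hP₀ : P₀ ≠ ⊥ := by
    intro h0
    apply hne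
    apply le_antisymm _ hNP
    intro u hu
    obtain ⟨n, hn, hh⟩ := hdec u hu
    rw [h0, Subgroup.mem_bot] at hh
    have : u = n := by
      rw [inv_mul_eq_one] at hh
      exact hh.symm
    rw [this]
    exact hn
  have hP₀p : IsPGroup p P₀ := P.isPGroup'.to_le inf_le_left
  haveI : Nontrivial P₀ := (Subgroup.nontrivial_iff_ne_bot _).mpr hP₀
  have hcen := hP₀p.center_nontrivial
  obtain ⟨⟨z', hz'⟩, hz1⟩ := exists_ne (1 : Subgroup.center P₀)
  set z : G := (z' : G) with hz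
  have hz1' : z ≠ 1 := fun h => hz1 (Subtype.ext (Subtype.ext h))
  have hzC : z ∈ C := z'.2.2
  have hzN : z ∉ N := fun h => hz1' (hNC z h hzC)
  have hzcomm : ∀ v ∈ P₀, v * z = z * v := by
    intro v hv
    exact congrArg Subtype.val ((Subgroup.mem_center_iff.mp hz') ⟨v, hv⟩)
  have hcomm : ∀ u ∈ (P : Subgroup G), z⁻¹ * u * z * u⁻¹ ∈ N := by
    intro u hu
    obtain ⟨n, hn, hh⟩ := hdec u hu
    set v := n⁻¹ * u with hv
    have huv : u = n * v := by rw [hv]; group
    have h1 : z⁻¹ * u * z * u⁻¹ = (z⁻¹ * n * z) * n⁻¹ := by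
      rw [huv]
      calc z⁻¹ * (n * v) * z * (n * v)⁻¹ = z⁻¹ * n * (v * z) * v⁻¹ * n⁻¹ := by group
        _ = z⁻¹ * n * (z * v) * v⁻¹ * n⁻¹ := by rw [hzcomm v hh]
        _ = (z⁻¹ * n * z) * n⁻¹ := by group
    rw [h1]
    have h2 : z⁻¹ * n * z ∈ N := by
      have := hNn.conj_mem n hn z⁻¹
      simpa using this
    exact N.mul_mem h2 (N.inv_mem hn)
  have horb := orbit_surj χ N D.hG D.hχ D.hN D.hNp P hzN hcomm
  let φ : N → N := fun n => ⟨z⁻¹ * n * z * (n : G)⁻¹, by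
    have h2 : z⁻¹ * (n : G) * z ∈ N := by
      have := hNn.conj_mem n n.2 z⁻¹
      simpa using this
    exact N.mul_mem h2 (N.inv_mem n.2)⟩
  have hφs : Function.Surjective φ := by
    rintro ⟨n', hn'⟩
    obtain ⟨u, hu, huz⟩ := horb n' hn'
    obtain ⟨n, hn, hh⟩ := hdec u hu
    set v := n⁻¹ * u with hv
    have huv : u = n * v := by rw [hv]; group
    refine ⟨⟨n, hn⟩, Subtype.ext ?_⟩
    change z⁻¹ * n * z * n⁻¹ = n'
    rw [huv] at huz
    have h1 : (n * v) * z * (n * v)⁻¹ = n * z * n⁻¹ := by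
      calc (n * v) * z * (n * v)⁻¹ = n * (v * z) * v⁻¹ * n⁻¹ := by group
        _ = n * (z * v) * v⁻¹ * n⁻¹ := by rw [hzcomm v hh]
        _ = n * z * n⁻¹ := by group
    rw [h1] at huz
    -- `n z n⁻¹ = z n'`
    have h3 : n' = z⁻¹ * (n * z * n⁻¹) := by rw [huz]; group
    rw [h3]
    group
  have hφi : Function.Injective φ := Finite.injective_iff_surjective.mpr hφs
  obtain ⟨a, ha, ha1, hafix⟩ := exists_fixed D P.isPGroup'
  have hzP : z ∈ (P : Subgroup G) := z'.2.1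
  have h1 := hafix z hzP
  have h2 : φ ⟨a, ha⟩ = φ 1 := by
    apply Subtype.ext
    change z⁻¹ * a * z * a⁻¹ = z⁻¹ * ((1 : N) : G) * z * (((1 : N) : G))⁻¹
    have h3 : a * z = z * a := (mul_inv_eq_iff_eq_mul.mp h1).symm
    simp only [OneMemClass.coe_one, mul_one, inv_one, inv_mul_cancel]
    rw [mul_assoc z⁻¹ a z, h3]
    group
  have h3 := congrArg Subtype.val (hφi h2)
  exact ha1 h3

/-- `p = 2`. -/
theorem sylow_eq_two {χ : IrrCharacter G} {N : Subgroup G} [hNn : N.Normal] (D : Data χ 2 N)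
    (hC : Subgroup.centralizer (N : Set G) ≤ N) (hq : pCore 2 (G ⧸ N) = ⊥) (P : Sylow 2 G) :
    (P : Subgroup G) = N := by
  classical
  have hNP : N ≤ (P : Subgroup G) := D.hNp.le_sylow_of_normal P
  by_contra hne
  obtain ⟨x, hxP, hxN⟩ : ∃ x ∈ (P : Subgroup G), x ∉ N := by
    by_contra hno
    push Not at hno
    exact hne (le_antisymm hno hNP)
  obtain ⟨z, hzP, hzN, hz2⟩ : ∃ z ∈ (P : Subgroup G), z ∉ N ∧ z ^ 2 ∈ N := by
    obtain ⟨k, hk⟩ := (IsPGroup.iff_orderOf.mp P.isPGroup') ⟨x, hxP⟩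
    rw [Subgroup.orderOf_mk] at hk
    have hex : ∃ j, x ^ (2 ^ j) ∈ N := ⟨k, by
      rw [← hk, pow_orderOf_eq_one]
      exact N.one_mem⟩
    have hj0 : Nat.find hex ≠ 0 := by
      intro h0
      have h1 := Nat.find_spec hex
      rw [h0] at h1
      apply hxN
      simpa using h1
    obtain ⟨i, hi⟩ := Nat.exists_eq_succ_of_ne_zero hj0
    refine ⟨x ^ (2 ^ i), pow_mem hxP _, Nat.find_min hex (by omega), ?_⟩
    have h1 := Nat.find_spec hex
    rw [hi, pow_succ, pow_mul] at h1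
    exact h1
  -- `N` has exponent `2`
  have hexp : ∀ n ∈ N, n ^ 2 = 1 := by
    obtain ⟨⟨a, ha⟩, hao⟩ := exists_prime_orderOf_dvd_card' (G := N) 2 (dvd_card_N D)
    rw [Subgroup.orderOf_mk] at hao
    have ha2 : a ^ 2 = 1 := by
      rw [← hao]
      exact pow_orderOf_eq_one a
    have ha1 : a ≠ 1 := by
      rintro rfl
      simp at hao
    intro n hn
    by_cases hn1 : n = 1
    · rw [hn1, one_pow]
    have h1 := (isConj_of_mem D hn hn1 ha ha1).pow 2
    rw [ha2] at h1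
    exact isConj_one_left.mp h1
  -- Baer-Suzuki
  let π : G →* G ⧸ N := QuotientGroup.mk' N
  let X : Subgroup (G ⧸ N) := Subgroup.zpowers (π z)
  have hX : IsPGroup 2 X := (P.isPGroup'.map π).to_le
    (Subgroup.zpowers_le.mpr ⟨z, hzP, rfl⟩)
  have hπz : π z ≠ 1 := fun h => hzN ((QuotientGroup.eq_one_iff z).mp h)
  obtain ⟨g₀, hg₀⟩ : ∃ g : G ⧸ N, ¬ IsPGroup 2 ↥(X ⊔ X.map (MulAut.conj g).toMonoidHom) := by
    by_contra hall
    push Not at hall
    obtain ⟨M, hMn, hMp, hXM⟩ := Cfsg.Agent.S0199.result X hX hall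
    have h1 : M ≤ pCore 2 (G ⧸ N) := le_pCore hMn hMp
    rw [hq] at h1
    have h2 : π z ∈ M := hXM (Subgroup.mem_zpowers _)
    exact hπz (Subgroup.mem_bot.mp (h1 h2))
  obtain ⟨g, rfl⟩ := QuotientGroup.mk_surjective g₀
  set y : G := g * z * g⁻¹ with hy
  have hnocommon : ∀ w ∈ N, z * w * z⁻¹ = w → y * w * y⁻¹ = w → w = 1 := by
    intro w hw h1 h2
    by_contra hw1
    apply hg₀
    have hS := isPGroup_centralizer_of_mem D hw hw1
    have hcmem : ∀ v : G, v * w * v⁻¹ = w → v ∈ Subgroup.centralizer ({w} : Set G) := by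
      intro v hv
      rw [Subgroup.mem_centralizer_iff]
      intro u hu
      rw [Set.mem_singleton_iff.mp hu]
      exact (mul_inv_eq_iff_eq_mul.mp hv).symm
    refine (hS.map π).to_le (sup_le ?_ ?_)
    · exact Subgroup.zpowers_le.mpr ⟨z, hcmem z h1, rfl⟩
    · rw [Subgroup.map_le_iff_le_comap]
      apply Subgroup.zpowers_le.mpr
      rw [Subgroup.mem_comap]
      refine ⟨y, hcmem y h2, ?_⟩
      simp only [hy, map_mul, map_inv]
      rfl
  -- the map `f`
  have hzN' : ∀ n ∈ N, z * n * z⁻¹ ∈ N := fun n hn => hNn.conj_mem n hn z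
  let f : N →* N :=
    { toFun := fun n => ⟨z * n * z⁻¹ * (n : G)⁻¹, N.mul_mem (hzN' n n.2) (N.inv_mem n.2)⟩
      map_one' := by
        apply Subtype.ext
        simp
      map_mul' := by
        intro a b
        apply Subtype.ext
        change z * ((a : G) * b) * z⁻¹ * ((a : G) * b)⁻¹ =
          (z * a * z⁻¹ * (a : G)⁻¹) * (z * b * z⁻¹ * (b : G)⁻¹)
        have h1 : (a : G)⁻¹ * (z * b * z⁻¹ * (b : G)⁻¹) = (z * b * z⁻¹ * (b : G)⁻¹) * (a : G)⁻¹ :=
          comm D (N.inv_mem a.2) (N.mul_mem (hzN' b b.2) (N.inv_mem b.2))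
        calc z * ((a : G) * b) * z⁻¹ * ((a : G) * b)⁻¹
            = (z * a * z⁻¹) * ((z * b * z⁻¹ * (b : G)⁻¹) * (a : G)⁻¹) := by group
          _ = (z * a * z⁻¹) * ((a : G)⁻¹ * (z * b * z⁻¹ * (b : G)⁻¹)) := by rw [h1]
          _ = _ := by group }
  have hf : ∀ n : N, ((f n : N) : G) = z * n * z⁻¹ * (n : G)⁻¹ := fun n => rfl
  have hfker : ∀ n : N, n ∈ f.ker ↔ z * (n : G) * z⁻¹ = n := by
    intro n
    rw [MonoidHom.mem_ker]
    constructor
    · intro h
      have h1 := congrArg Subtype.val h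
      rw [hf] at h1
      exact mul_inv_eq_one.mp h1
    · intro h
      apply Subtype.ext
      rw [hf, h]
      simp
  -- `f` squared
  have hIA : f.range ≤ f.ker := by
    rintro _ ⟨n, rfl⟩
    rw [hfker, hf]
    set w : G := z * n * z⁻¹ * (n : G)⁻¹ with hw
    have hwN : w ∈ N := N.mul_mem (hzN' n n.2) (N.inv_mem n.2)
    have hzz : z ^ 2 * n = n * z ^ 2 := comm D hz2 n.2
    have h1 : z * w * z⁻¹ = (n : G) * (z * n * z⁻¹)⁻¹ := by
      rw [hw]
      calc z * (z * n * z⁻¹ * (n : G)⁻¹) * z⁻¹ = (z ^ 2 * n) * (z ^ 2)⁻¹ * (z * (n : G)⁻¹ * z⁻¹) := by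
            simp only [pow_two]
            group
        _ = (n * z ^ 2) * (z ^ 2)⁻¹ * (z * (n : G)⁻¹ * z⁻¹) := by rw [hzz]
        _ = _ := by
            simp only [pow_two]
            group
    rw [h1]
    have h2 : (n : G) * (z * n * z⁻¹)⁻¹ = w⁻¹ := by
      rw [hw]
      group
    rw [h2]
    have h3 := hexp w hwN
    rw [pow_two] at h3
    exact inv_eq_of_mul_eq_one_left h3
  -- counting
  have hinj : Nat.card f.ker * Nat.card f.ker ≤ Nat.card N := by
    rw [← Nat.card_prod]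
    have hconjker : ∀ b : f.ker, g * ((b : N) : G) * g⁻¹ ∈ N := fun b => hNn.conj_mem _ (b : N).2 g
    apply Nat.card_le_card_of_injective
      (fun q : f.ker × f.ker => (q.1 : N) * ⟨g * ((q.2 : N) : G) * g⁻¹, hconjker q.2⟩)
    rintro ⟨a, b⟩ ⟨a', b'⟩ he
    have he' : ((a : N) : G) * (g * ((b : N) : G) * g⁻¹) = ((a' : N) : G) * (g * ((b' : N) : G) * g⁻¹) :=
      congrArg Subtype.val he
    set w : G := ((a' : N) : G)⁻¹ * ((a : N) : G) with hw
    have hw2 : w = g * (((b' : N) : G) * ((b : N) : G)⁻¹) * g⁻¹ := by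
      have h1 : ((a : N) : G) = ((a' : N) : G) * (g * ((b' : N) : G) * g⁻¹) * (g * ((b : N) : G) * g⁻¹)⁻¹ :=
        eq_mul_inv_of_mul_eq he'
      rw [hw, h1]
      group
    have hwN : w ∈ N := N.mul_mem (N.inv_mem (a' : N).2) (a : N).2
    have hA : ∀ a₁ : f.ker, z * ((a₁ : N) : G) * z⁻¹ = (a₁ : N) := fun a₁ => (hfker _).mp a₁.2
    have h1 : z * w * z⁻¹ = w := by
      have : z * w * z⁻¹ = (z * ((a' : N) : G) * z⁻¹)⁻¹ * (z * ((a : N) : G) * z⁻¹) := by
        rw [hw]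
        group
      rw [this, hA, hA]
    have h2 : y * w * y⁻¹ = w := by
      have hb : z * (((b' : N) : G) * ((b : N) : G)⁻¹) * z⁻¹ = ((b' : N) : G) * ((b : N) : G)⁻¹ := by
        have : z * (((b' : N) : G) * ((b : N) : G)⁻¹) * z⁻¹ =
            (z * ((b' : N) : G) * z⁻¹) * (z * ((b : N) : G) * z⁻¹)⁻¹ := by group
        rw [this, hA, hA]
      rw [hy, hw2]
      calc (g * z * g⁻¹) * (g * (((b' : N) : G) * ((b : N) : G)⁻¹) * g⁻¹) * (g * z * g⁻¹)⁻¹
          = g * (z * (((b' : N) : G) * ((b : N) : G)⁻¹) * z⁻¹) * g⁻¹ := by group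
        _ = _ := by rw [hb]
    have hw1 := hnocommon w hwN h1 h2
    have ha : (a : N) = a' := by
      apply Subtype.ext
      rw [hw, inv_mul_eq_one] at hw1
      exact hw1.symm
    have hb : (b : N) = b' := by
      apply Subtype.ext
      rw [hw1] at hw2
      have h3 : ((b' : N) : G) * ((b : N) : G)⁻¹ = 1 := conj_eq_one_iff.mp hw2.symm
      exact (mul_inv_eq_one.mp h3).symm
    exact Prod.ext (Subtype.ext ha) (Subtype.ext hb)
  have hfin : Nat.card f.ker * Nat.card f.range = Nat.card N := by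
    rw [← Subgroup.index_ker]
    exact Subgroup.card_mul_index _
  have hpos : 0 < Nat.card f.ker := Nat.card_pos
  have hle : Nat.card f.range ≤ Nat.card f.ker := Subgroup.card_le_of_le hIA
  have hge : Nat.card f.ker ≤ Nat.card f.range := by
    have h1 : Nat.card f.ker * Nat.card f.ker ≤ Nat.card f.ker * Nat.card f.range := by
      rw [hfin]
      exact hinj
    exact Nat.le_of_mul_le_mul_left h1 hpos
  have hIeq : f.range = f.ker := Subgroup.eq_of_le_of_card_ge hIA hge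
  -- `z ^ 2` in the image
  have hzk : (⟨z ^ 2, hz2⟩ : N) ∈ f.ker := by
    rw [hfker]
    change z * z ^ 2 * z⁻¹ = z ^ 2
    group
  rw [← hIeq] at hzk
  obtain ⟨n₀, hn₀⟩ := hzk
  have hn₀' : z * n₀ * z⁻¹ * (n₀ : G)⁻¹ = z ^ 2 := congrArg Subtype.val hn₀
  have hsq : ∀ n : N, (z * (n : G)) ^ 2 = (z * n * z⁻¹ * (n : G)⁻¹) * z ^ 2 := by
    intro n
    have h1 := hexp n n.2
    have h2 : (n : G) * z ^ 2 = z ^ 2 * n := comm D n.2 hz2
    have h3 : (n : G)⁻¹ = n := inv_eq_of_mul_eq_one_left (by rw [← pow_two]; exact h1)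
    calc (z * (n : G)) ^ 2 = z * n * z⁻¹ * (z ^ 2 * n) := by
          simp only [pow_two]
          group
      _ = z * n * z⁻¹ * ((n : G) * z ^ 2) := by rw [h2]
      _ = z * n * z⁻¹ * ((n : G)⁻¹ * z ^ 2) := by rw [h3]
      _ = _ := by
          simp only [pow_two]
          group
  have hz21 : z ^ 2 = 1 := by
    have h1 := (isConj_mul χ N D.hG D.hχ D.hN hzN n₀.2).pow 2
    rw [hsq n₀, hn₀'] at h1
    have h2 : z ^ 2 * z ^ 2 = 1 := by
      have := hexp _ hz2
      rwa [pow_two (z ^ 2)] at this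
    rw [h2] at h1
    exact isConj_one_left.mp h1
  apply hzN
  apply hC
  rw [Subgroup.mem_centralizer_iff]
  intro n hn
  have h1 := (isConj_mul χ N D.hG D.hχ D.hN hzN hn).pow 2
  rw [hsq ⟨n, hn⟩, hz21, mul_one, isConj_one_right] at h1
  exact (mul_inv_eq_iff_eq_mul.mp (mul_inv_eq_one.mp h1)).symm

/-- If `N = O_p(G)` then `N` is a Sylow subgroup. -/
theorem sylow_eq (D : Data χ p N) (hN' : N = pCore p G) (P : Sylow p G) : (P : Subgroup G) = N := by
  have hC : Subgroup.centralizer (N : Set G) ≤ N := by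
    rw [centralizer_eq_pCore D, ← hN']
  by_cases hp2 : p = 2
  · subst hp2
    subst hN'
    exact sylow_eq_two D hC pCore_quotient_eq_bot P
  · exact sylow_eq_of_odd D hC hp2 P

open Cfsg.Agent.Lib.Frobenius.Basic in
/-- If `N = O_p(G)`, `G` is a doubly transitive Frobenius group. -/
theorem exists_complement (D : Data χ p N) (hN' : N = pCore p G) :
    ∃ H : Subgroup G, IsFrobeniusComplement H ∧ frobeniusKernel H = (N : Set G) ∧
      Nat.card H + 1 = Nat.card N := by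
  classical
  obtain ⟨c, m, hc1, hcN, hm0, hconj, hconj', hcard, hbm, hdm, hGc⟩ :=
    exists_data χ N D.hG D.hχ D.hN
  let P : Sylow p G := default
  have hPN := sylow_eq D hN' P
  obtain ⟨e, he⟩ := IsPGroup.iff_card.mp D.hNp
  have hnd : ¬ p ∣ N.index := by
    have := P.not_dvd_index
    rwa [hPN] at this
  have hcop : Nat.Coprime (Nat.card N) N.index := by
    rw [he]
    exact Nat.Coprime.pow_left e ((Nat.Prime.coprime_iff_not_dvd hp.out).mpr hnd)
  obtain ⟨H, hH⟩ := Subgroup.exists_right_complement'_of_coprime hcop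
  have hcent : ∀ a ∈ N, a ≠ 1 → Subgroup.centralizer ({a} : Set G) = N := by
    intro a ha ha1
    obtain ⟨Q, hQ⟩ := centralizer_sylow χ N D.hG D.hχ D.hN D.hNp ha ha1
    rw [hQ]
    exact sylow_eq D hN' Q
  have hN2 : 2 ≤ Nat.card N := hp.out.two_le.trans (Nat.le_of_dvd Nat.card_pos (dvd_card_N D))
  have hidx : N.index = Nat.card N - 1 := by
    have h1 := card_isConj_mul_card_centralizer c
    rw [hcard, hcent c hcN hc1] at h1
    have h2 := N.card_mul_index
    rw [← h1, mul_comm] at h2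
    exact Nat.eq_of_mul_eq_mul_right Nat.card_pos h2
  have hHcard : Nat.card H = Nat.card N - 1 := by
    have h1 := hH.card_mul
    have h2 := N.card_mul_index
    rw [← hidx]
    rw [← h1] at h2
    exact Nat.eq_of_mul_eq_mul_left Nat.card_pos h2.symm
  have hdisj : ∀ x ∈ N, x ∈ H → x = 1 := by
    intro x h1 h2
    exact Subgroup.mem_bot.mp (hH.disjoint.le_bot ⟨h1, h2⟩)
  have hHne : H ≠ ⊥ := by
    rintro rfl
    have h1 := hH.card_mul
    simp only [Subgroup.card_bot, mul_one] at h1 hHcard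
    have := D.hG
    omega
  have hF : IsFrobeniusComplement H := by
    refine (isFrobeniusComplement_iff_of_isComplement' N hH D.hN1 hHne).mpr fun h hh hne => ?_
    rw [eq_bot_iff]
    rintro x ⟨hxN, hxc⟩
    rw [Subgroup.mem_bot]
    by_contra hx1
    apply hne
    apply hdisj h _ hh
    rw [← hcent x hxN hx1, Subgroup.mem_centralizer_iff]
    intro y hy
    rw [Set.mem_singleton_iff.mp hy]
    exact (Subgroup.mem_centralizer_iff.mp hxc h (Set.mem_singleton h)).symm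
  refine ⟨H, hF, ?_, by omega⟩
  have hsub : (N : Set G) ⊆ frobeniusKernel H := by
    intro n hn
    by_cases hn1 : n = 1
    · exact Or.inl hn1
    · refine Or.inr fun g hg => hn1 ?_
      rw [mem_conj_iff] at hg
      have h1 : g⁻¹ * n * g ∈ N := by
        have := hNn.conj_mem n hn g⁻¹
        simpa using this
      have h2 := hdisj _ h1 hg
      have h3 : n = g * (g⁻¹ * n * g) * g⁻¹ := by group
      rw [h3, h2]
      simp
  have hcardk : Nat.card (frobeniusKernel H) = H.index := card_frobeniusKernel hF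
  have hindexH : H.index = Nat.card N := by
    have h1 := hH.card_mul
    have h2 := H.card_mul_index
    rw [← h1, mul_comm] at h2
    exact Nat.eq_of_mul_eq_mul_right Nat.card_pos h2
  symm
  apply Set.eq_of_subset_of_ncard_le hsub
  · rw [← Nat.card_coe_set_eq, ← Nat.card_coe_set_eq, hcardk, hindexH]
    rfl

open Cfsg.Agent.Lib.Frobenius.Basic in
/-- The converse. -/
theorem pCore_eq_of_complement (D : Data χ p N) {H : Subgroup G} (hF : IsFrobeniusComplement H)
    (hk : frobeniusKernel H = (N : Set G)) (hc : Nat.card H + 1 = Nat.card N) :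
    N = pCore p G := by
  classical
  have hcardk : Nat.card (frobeniusKernel H) = H.index := card_frobeniusKernel hF
  rw [hk] at hcardk
  have hcardk' : Nat.card N = H.index := hcardk
  have hG : Nat.card G = (Nat.card N - 1) * Nat.card N := by
    rw [← H.card_mul_index, ← hcardk']
    congr 1
    omega
  apply Subgroup.eq_of_le_of_card_ge (le_pCore_N D)
  obtain ⟨k, hk'⟩ := IsPGroup.iff_card.mp (pCore_isPGroup (p := p) (G := G))
  have h1 : Nat.card (pCore p G) ∣ Nat.card G := Subgroup.card_subgroup_dvd_card _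
  rw [hG] at h1
  have hpd := dvd_card_N D
  have hN1 : 1 ≤ Nat.card N := Nat.card_pos
  have hnd : ¬ p ∣ Nat.card N - 1 := by
    intro h
    have h2 := Nat.dvd_sub hpd h
    have h3 : Nat.card N - (Nat.card N - 1) = 1 := by omega
    rw [h3] at h2
    exact hp.out.one_lt.ne' (Nat.dvd_one.mp h2)
  have hcop : Nat.Coprime (Nat.card (pCore p G)) (Nat.card N - 1) := by
    rw [hk']
    exact Nat.Coprime.pow_left k ((Nat.Prime.coprime_iff_not_dvd hp.out).mpr hnd)
  exact Nat.le_of_dvd Nat.card_pos (hcop.dvd_of_dvd_mul_left h1)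

end Cfsg.Agent.Lib.Gagola.Split
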